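import Cfsg.Agent.Lib.Helper75.OmSyl.G3a

set_option autoImplicit false

/-! # OmSyl farm (helper58), piece [G3] -/

namespace Cfsg.Agent.Lib.Helper75.OmSyl

open Cfsg Cfsg.Agent.Lib.Helper58.WrSyl Cfsg.Agent.Lib.Helper58.OmSyl
open scoped commutatorElement

lemma powcomm_mul {H : Type*} [Group H] (p : ℕ) {x y : H} (hx : x ^ p ∈ commutator H)
    (hy : y ^ p ∈ commutator H) : (x * y) ^ p ∈ commutator H := by
  rw [← Abelianization.ker_of, MonoidHom.mem_ker] at *
  rw [map_pow, map_mul, mul_pow, ← map_pow, ← map_pow, hx, hy, one_mul]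

lemma mem_commutator_subtype {Y : Type*} [Group Y] (K : Subgroup Y) (x : K) :
    x ∈ commutator K ↔ (x : Y) ∈ ⁅K, K⁆ := by
  rw [← Subgroup.map_subtype_commutator]
  exact (Subgroup.mem_map_iff_mem K.subtype_injective).symm

/-- a homomorphism sending `Q` into `K` sends `⁅Q, Q⁆` into `⁅K, K⁆`. -/
lemma map_comm_le {X Y : Type*} [Group X] [Group Y] (θ : X →* Y) (Q : Subgroup X)
    (K : Subgroup Y) (h : ∀ x ∈ Q, θ x ∈ K) {z : X} (hz : z ∈ ⁅Q, Q⁆) : θ z ∈ ⁅K, K⁆ := by
  have h1 : Q.map θ ≤ K := by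
    rintro _ ⟨x, hx, rfl⟩
    exact h x hx
  have h2 : (⁅Q, Q⁆).map θ ≤ ⁅K, K⁆ := by
    rw [Subgroup.map_commutator]
    exact Subgroup.commutator_mono h1 h1
  exact h2 ⟨z, hz, rfl⟩

/-- [G3] -/
theorem powComm_core {S C : Type*} [Group S] [Group C] (p n : ℕ) (hn : 3 ≤ n)
    (Q : Subgroup S) (R : Subgroup (Equiv.Perm (Fin n)))
    (hQ : PowComm p Q) (hR : PowComm p R) (hC : ∀ c : C, c ^ p = 1)
    (M : Subgroup (Wr S n × C)) (hM : commutator (Wr S n × C) ≤ M)
    (hRM : ∀ σ : Equiv.Perm (Fin n), ((SemidirectProduct.inr σ : Wr S n), (1 : C)) ∈ M)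
    (T : Subgroup (Wr S n × C))
    (hT : ∀ x : Wr S n × C, x ∈ T ↔ (∀ i, x.1.left i ∈ Q) ∧ x.1.right ∈ R) :
    PowComm p ↥(T ⊓ M) := by
  intro x
  obtain ⟨⟨w, c⟩, hx⟩ := x
  have hxT := (hT _).1 (Subgroup.mem_inf.1 hx).1
  have hsK : ∀ σ ∈ R, iotaR S C n σ ∈ T ⊓ M := by
    intro σ hσ
    refine Subgroup.mem_inf.2 ⟨?_, hRM σ⟩
    rw [hT]
    exact ⟨fun i => Q.one_mem, hσ⟩
  have hs := hsK w.right hxT.2
  have hy : ((SemidirectProduct.inl w.left : Wr S n), c) ∈ T ⊓ M := by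
    have h1 := (T ⊓ M).mul_mem hx ((T ⊓ M).inv_mem hs)
    have h2 : ((w, c) : Wr S n × C) * (iotaR S C n w.right)⁻¹
        = ((SemidirectProduct.inl w.left : Wr S n), c) := by
      rw [iotaR_apply]
      apply Prod.ext
      · change w * (SemidirectProduct.inr w.right)⁻¹ = SemidirectProduct.inl w.left
        rw [mul_inv_eq_iff_eq_mul, SemidirectProduct.inl_left_mul_inr_right]
      · simp
    rwa [h2] at h1
  have hdec : (⟨(w, c), hx⟩ : ↥(T ⊓ M))
      = ⟨((SemidirectProduct.inl w.left : Wr S n), c), hy⟩ * ⟨iotaR S C n w.right, hs⟩ := by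
    apply Subtype.ext
    change ((w, c) : Wr S n × C) = ((SemidirectProduct.inl w.left : Wr S n), c)
      * iotaR S C n w.right
    rw [iotaR_apply]
    apply Prod.ext
    · change w = SemidirectProduct.inl w.left * SemidirectProduct.inr w.right
      rw [SemidirectProduct.inl_left_mul_inr_right]
    · simp
  rw [hdec]
  apply powcomm_mul
  · rw [mem_commutator_subtype]
    change (((SemidirectProduct.inl w.left : Wr S n), c) : Wr S n × C) ^ p ∈ _
    have h1 : (((SemidirectProduct.inl w.left : Wr S n), c) : Wr S n × C) ^ p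
        = ((SemidirectProduct.inl (w.left ^ p) : Wr S n), (1 : C)) := by
      rw [Prod.pow_mk, hC, map_pow]
    rw [h1]
    apply single_comm_mem n hn Q R M hM T hT
    intro i
    have h2 := hQ ⟨w.left i, hxT.1 i⟩
    rw [mem_commutator_subtype] at h2
    exact h2
  · rw [mem_commutator_subtype]
    change (iotaR S C n w.right) ^ p ∈ _
    rw [← map_pow]
    apply map_comm_le (iotaR S C n) R (T ⊓ M) hsK
    have h2 := hR ⟨w.right, hxT.2⟩
    rw [mem_commutator_subtype] at h2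
    exact h2

end Cfsg.Agent.Lib.Helper75.OmSyl
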