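import Cfsg.Agent.Lib.Helper58.OmSyl.Defs

set_option autoImplicit false

/-! # OmSyl farm (helper58), piece [G3a] -/

namespace Cfsg.Agent.Lib.Helper75.OmSyl

open Cfsg Cfsg.Agent.Lib.Helper58.WrSyl Cfsg.Agent.Lib.Helper58.OmSyl
open scoped commutatorElement

section base

variable {S C : Type*} [Group S] [Group C] {n : ℕ}

/-- `f ↦ (inl f, 1)`. -/
def iotaF (S C : Type*) [Group S] [Group C] (n : ℕ) : (Fin n → S) →* Wr S n × C :=
  (MonoidHom.inl (Wr S n) C).comp SemidirectProduct.inl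

/-- `σ ↦ (inr σ, 1)`. -/
def iotaR (S C : Type*) [Group S] [Group C] (n : ℕ) : Equiv.Perm (Fin n) →* Wr S n × C :=
  (MonoidHom.inl (Wr S n) C).comp SemidirectProduct.inr

lemma iotaF_apply (f : Fin n → S) :
    iotaF S C n f = ((SemidirectProduct.inl f : Wr S n), (1 : C)) := rfl

lemma iotaR_apply (σ : Equiv.Perm (Fin n)) :
    iotaR S C n σ = ((SemidirectProduct.inr σ : Wr S n), (1 : C)) := rfl

lemma iotaR_conj (σ : Equiv.Perm (Fin n)) (f : Fin n → S) :
    iotaR S C n σ * iotaF S C n f * (iotaR S C n σ)⁻¹ = iotaF S C n (permAut S n σ f) := by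
  rw [iotaF_apply, iotaF_apply, iotaR_apply, SemidirectProduct.inl_aut]
  simp

lemma permAut_swap_mulSingle (i j : Fin n) (x : S) :
    permAut S n (Equiv.swap i j) (Pi.mulSingle i x) = Pi.mulSingle j x := by
  funext k
  rw [permAut_apply, Equiv.symm_swap, Pi.mulSingle_apply, Pi.mulSingle_apply]
  by_cases hk : k = j
  · subst hk
    simp
  · rw [if_neg hk, if_neg]
    intro h
    apply hk
    have := congrArg (Equiv.swap i j) h
    simpa using this

/-- `(inl (e_i x * e_j x⁻¹), 1)` is a commutator. -/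
lemma iotaF_pair_mem_commutator (i j : Fin n) (x : S) :
    iotaF S C n (Pi.mulSingle i x * Pi.mulSingle j x⁻¹) ∈ commutator (Wr S n × C) := by
  have h : iotaF S C n (Pi.mulSingle i x * Pi.mulSingle j x⁻¹)
      = ⁅iotaF S C n (Pi.mulSingle i x), iotaR S C n (Equiv.swap i j)⁆ := by
    rw [commutatorElement_def, mul_assoc, mul_assoc, ← mul_assoc (iotaR S C n _), ← map_inv,
      iotaR_conj, ← map_mul, ← Pi.mulSingle_inv, permAut_swap_mulSingle]
  rw [h]
  exact Subgroup.commutator_mem_commutator (Subgroup.mem_top _) (Subgroup.mem_top _)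

lemma comm_pairs {i j k : Fin n} (hij : i ≠ j) (hik : i ≠ k) (hjk : j ≠ k) (x y : S) :
    ⁅(Pi.mulSingle i x * Pi.mulSingle j x⁻¹ : Fin n → S), Pi.mulSingle i y * Pi.mulSingle k y⁻¹⁆
      = (Pi.mulSingle i (⁅x, y⁆ : S) : Fin n → S) := by
  funext l
  simp only [commutatorElement_def, Pi.mul_apply, Pi.inv_apply, Pi.mulSingle_apply]
  by_cases h1 : l = i
  · subst h1
    simp [hij, hik]
  · by_cases h2 : l = j
    · subst h2
      simp [h1, hjk]
    · simp [h1, h2]

end base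

/-- [G3a] -/
theorem single_comm_mem {S C : Type*} [Group S] [Group C] (n : ℕ) (hn : 3 ≤ n)
    (Q : Subgroup S) (R : Subgroup (Equiv.Perm (Fin n)))
    (M : Subgroup (Wr S n × C)) (hM : commutator (Wr S n × C) ≤ M)
    (T : Subgroup (Wr S n × C))
    (hT : ∀ x : Wr S n × C, x ∈ T ↔ (∀ i, x.1.left i ∈ Q) ∧ x.1.right ∈ R)
    (f : Fin n → S) (hf : ∀ i, f i ∈ ⁅Q, Q⁆) :
    ((SemidirectProduct.inl f : Wr S n), (1 : C)) ∈ ⁅T ⊓ M, T ⊓ M⁆ := by
  classical
  have hpair : ∀ (i j : Fin n) (x : S), x ∈ Q →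
      iotaF S C n (Pi.mulSingle i x * Pi.mulSingle j x⁻¹) ∈ T ⊓ M := by
    intro i j x hx
    refine Subgroup.mem_inf.2 ⟨?_, hM (iotaF_pair_mem_commutator i j x)⟩
    rw [hT]
    refine ⟨fun l => ?_, R.one_mem⟩
    change (Pi.mulSingle i x * Pi.mulSingle j x⁻¹ : Fin n → S) l ∈ Q
    rw [Pi.mul_apply, Pi.mulSingle_apply, Pi.mulSingle_apply]
    refine Q.mul_mem ?_ ?_
    · split_ifs
      · exact hx
      · exact Q.one_mem
    · split_ifs
      · exact Q.inv_mem hx
      · exact Q.one_mem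
  have hsingle : ∀ i : Fin n, ⁅Q, Q⁆ ≤
      (⁅T ⊓ M, T ⊓ M⁆).comap ((iotaF S C n).comp (MonoidHom.mulSingle (fun _ => S) i)) := by
    intro i
    obtain ⟨j, k, hij, hik, hjk⟩ : ∃ j k : Fin n, i ≠ j ∧ i ≠ k ∧ j ≠ k := by
      have h1 : 1 < (Finset.univ.erase i).card := by
        rw [Finset.card_erase_of_mem (Finset.mem_univ _), Finset.card_univ, Fintype.card_fin]
        omega
      obtain ⟨j, hj, k, hk, hjk⟩ := Finset.one_lt_card.1 h1
      exact ⟨j, k, (Finset.ne_of_mem_erase hj).symm, (Finset.ne_of_mem_erase hk).symm, hjk⟩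
    rw [Subgroup.commutator_le]
    intro x hx y hy
    rw [Subgroup.mem_comap]
    change iotaF S C n (Pi.mulSingle i ⁅x, y⁆) ∈ _
    rw [← comm_pairs hij hik hjk x y, map_commutatorElement]
    exact Subgroup.commutator_mem_commutator (hpair i j x hx) (hpair i k y hy)
  have hpi : Subgroup.pi Set.univ (fun _ : Fin n => ⁅Q, Q⁆)
      ≤ (⁅T ⊓ M, T ⊓ M⁆).comap (iotaF S C n) := by
    rw [Subgroup.pi_le_iff]
    intro i
    rw [Subgroup.map_le_iff_le_comap, Subgroup.comap_comap]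
    exact hsingle i
  exact hpi (Subgroup.mem_pi _ |>.2 fun i _ => hf i)

end Cfsg.Agent.Lib.Helper75.OmSyl
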