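import Cfsg.Agent.Lib.Helper75.OmSyl.G3

set_option autoImplicit false

/-! # OmSyl farm (helper58), piece [G4] -/

namespace Cfsg.Agent.Lib.Helper75.OmSyl

open Cfsg Cfsg.Agent.Lib.Helper58.WrSyl Cfsg.Agent.Lib.Helper58.OmSyl
open scoped commutatorElement

/-- the diagonal `z ↦ (z, z)`. -/
def diagH (S : Type*) [Group S] (n : ℕ) : S →* (Fin n → S) where
  toFun z := fun _ => z
  map_one' := rfl
  map_mul' _ _ := rfl

/-- [G4] -/
theorem powComm_core_two {S C : Type*} [Group S] [Group C] [Subsingleton C]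
    (Q : Subgroup S) (hQ : PowComm 2 Q)
    (M : Subgroup (Wr S 2 × C)) (hM : commutator (Wr S 2 × C) ≤ M)
    (hM2 : ∀ y : Wr S 2 × C, y ^ 2 ∈ M)
    (hRM : ∀ σ : Equiv.Perm (Fin 2), ((SemidirectProduct.inr σ : Wr S 2), (1 : C)) ∈ M)
    (hker : ∀ (x : S) (hx : x ∈ Q),
      ((SemidirectProduct.inl (Pi.mulSingle 0 x) : Wr S 2), (1 : C)) ∈ M →
        (⟨x, hx⟩ : Q) ∈ commutator Q)
    (T : Subgroup (Wr S 2 × C)) (hT : ∀ x : Wr S 2 × C, x ∈ T ↔ ∀ i, x.1.left i ∈ Q) :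
    PowComm 2 ↥(T ⊓ M) := by
  classical
  -- notation
  set i0 : S →* Wr S 2 × C := (iotaF S C 2).comp (MonoidHom.mulSingle (fun _ => S) 0) with hi0
  set i1 : S →* Wr S 2 × C := (iotaF S C 2).comp (MonoidHom.mulSingle (fun _ => S) 1) with hi1
  set dl : S →* Wr S 2 × C := (iotaF S C 2).comp (diagH S 2) with hdl
  set τ : Wr S 2 × C := iotaR S C 2 (Equiv.swap 0 1) with hτ
  have i0_apply : ∀ z, i0 z = iotaF S C 2 (Pi.mulSingle 0 z) := fun z => rfl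
  have i1_apply : ∀ z, i1 z = iotaF S C 2 (Pi.mulSingle 1 z) := fun z => rfl
  have dl_apply : ∀ z, dl z = iotaF S C 2 (fun _ => z) := fun z => rfl
  have hconj : ∀ z, τ * i0 z * τ⁻¹ = i1 z := by
    intro z
    rw [i0_apply, i1_apply, hτ, iotaR_conj, permAut_swap_mulSingle]
  have hcomm01 : ∀ a b, i0 a * i1 b = i1 b * i0 a := by
    intro a b
    rw [i0_apply, i1_apply, ← map_mul, ← map_mul]
    congr 1
    funext l
    fin_cases l <;> simp
  have hdl01 : ∀ z, dl z = i0 z * i1 z := by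
    intro z
    rw [i0_apply, i1_apply, dl_apply, ← map_mul]
    congr 1
    funext l
    fin_cases l <;> simp
  -- membership in `T`
  have memT_F : ∀ f : Fin 2 → S, (∀ l, f l ∈ Q) → iotaF S C 2 f ∈ T := by
    intro f hf
    rw [hT]
    exact hf
  have i0T : ∀ z ∈ Q, i0 z ∈ T := by
    intro z hz
    rw [i0_apply]
    apply memT_F
    intro l
    rw [Pi.mulSingle_apply]
    split_ifs
    · exact hz
    · exact Q.one_mem
  have i1T : ∀ z ∈ Q, i1 z ∈ T := by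
    intro z hz
    rw [i1_apply]
    apply memT_F
    intro l
    rw [Pi.mulSingle_apply]
    split_ifs
    · exact hz
    · exact Q.one_mem
  have dlT : ∀ z ∈ Q, dl z ∈ T := fun z hz => memT_F _ (fun _ => hz)
  have hsK : ∀ σ, iotaR S C 2 σ ∈ T ⊓ M := by
    intro σ
    refine Subgroup.mem_inf.2 ⟨?_, hRM σ⟩
    rw [hT]
    exact fun i => Q.one_mem
  have hτK : τ ∈ T ⊓ M := hsK _
  -- `i1 z ≡ i0 z` modulo the commutator subgroup
  have hbr : ∀ z, ⁅τ, i0 z⁆ = i1 z * (i0 z)⁻¹ := by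
    intro z
    rw [commutatorElement_def, hconj]
  have h10M : ∀ z, i1 z * (i0 z)⁻¹ ∈ M := by
    intro z
    rw [← hbr]
    exact hM (Subgroup.commutator_mem_commutator (Subgroup.mem_top _) (Subgroup.mem_top _))
  -- (a)
  have dlM : ∀ z, dl z ∈ M := by
    intro z
    have h1 : dl z = (i1 z * (i0 z)⁻¹) * (i0 z) ^ 2 := by
      rw [hdl01, hcomm01, pow_two]
      group
    rw [h1]
    exact M.mul_mem (h10M z) (hM2 _)
  have dlK : ∀ z ∈ Q, dl z ∈ T ⊓ M := fun z hz => Subgroup.mem_inf.2 ⟨dlT z hz, dlM z⟩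
  have dlK' : ∀ z ∈ ⁅Q, Q⁆, dl z ∈ ⁅T ⊓ M, T ⊓ M⁆ := fun z hz => map_comm_le dl Q _ dlK hz
  have hQQ : ⁅Q, Q⁆ ≤ Q := Subgroup.commutator_le.2 (fun a ha b hb =>
    Q.mul_mem (Q.mul_mem (Q.mul_mem ha hb) (Q.inv_mem ha)) (Q.inv_mem hb))
  -- (b)
  have i0K : ∀ z ∈ ⁅Q, Q⁆, i0 z ∈ T ⊓ M := by
    intro z hz
    refine Subgroup.mem_inf.2 ⟨i0T z (hQQ hz), hM ?_⟩
    exact map_comm_le i0 Q ⊤ (fun _ _ => Subgroup.mem_top _) hz
  have i1K : ∀ z ∈ ⁅Q, Q⁆, i1 z ∈ T ⊓ M := by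
    intro z hz
    refine Subgroup.mem_inf.2 ⟨i1T z (hQQ hz), hM ?_⟩
    exact map_comm_le i1 Q ⊤ (fun _ _ => Subgroup.mem_top _) hz
  have i1sq : ∀ z ∈ ⁅Q, Q⁆, (i1 z) ^ 2 ∈ ⁅T ⊓ M, T ⊓ M⁆ := by
    intro z hz
    have h1 : (i1 z) ^ 2 = ⁅τ, i0 z⁆ * dl z := by
      rw [hbr, hdl01, pow_two]
      group
    rw [h1]
    exact Subgroup.mul_mem _ (Subgroup.commutator_mem_commutator hτK (i0K z hz)) (dlK' z hz)
  -- the main argument
  intro x
  obtain ⟨⟨w, c⟩, hx⟩ := x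
  have hxT := (hT _).1 (Subgroup.mem_inf.1 hx).1
  have hc : c = 1 := Subsingleton.elim _ _
  subst hc
  have hs := hsK w.right
  have hwdec : ((w, 1) : Wr S 2 × C) = iotaF S C 2 w.left * iotaR S C 2 w.right := by
    rw [iotaR_apply, iotaF_apply]
    apply Prod.ext
    · change w = SemidirectProduct.inl w.left * SemidirectProduct.inr w.right
      rw [SemidirectProduct.inl_left_mul_inr_right]
    · simp
  have hy : iotaF S C 2 w.left ∈ T ⊓ M := by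
    have h1 := (T ⊓ M).mul_mem hx ((T ⊓ M).inv_mem hs)
    rwa [hwdec, mul_inv_cancel_right] at h1
  set x0 := w.left 0 with hx0
  set x1 := w.left 1 with hx1
  have hx0Q : x0 ∈ Q := hxT 0
  have hx1Q : x1 ∈ Q := hxT 1
  have hy01 : iotaF S C 2 w.left = i0 x0 * i1 x1 := by
    rw [i0_apply, i1_apply, ← map_mul]
    congr 1
    funext l
    fin_cases l <;> simp [hx0, hx1]
  have hzM : i0 (x0⁻¹ * x1) ∈ M := by
    have h1 : i0 (x0⁻¹ * x1) = ((i0 x0) ^ 2)⁻¹ * (i0 x0 * i1 x1) * (i1 x1 * (i0 x1)⁻¹)⁻¹ := by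
      have hc' : i1 x1 * (i0 x1)⁻¹ = (i0 x1)⁻¹ * i1 x1 := by rw [← map_inv, ← hcomm01]
      rw [hc', map_mul, map_inv, pow_two]
      group
    rw [h1]
    refine M.mul_mem (M.mul_mem (M.inv_mem (hM2 _)) ?_) (M.inv_mem (h10M _))
    rw [← hy01]
    exact (Subgroup.mem_inf.1 hy).2
  have hzQ : x0⁻¹ * x1 ∈ Q := Q.mul_mem (Q.inv_mem hx0Q) hx1Q
  have hz : x0⁻¹ * x1 ∈ ⁅Q, Q⁆ := by
    have h1 := hker _ hzQ hzM
    rwa [mem_commutator_subtype] at h1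
  have hy2 : iotaF S C 2 w.left = dl x0 * i1 (x0⁻¹ * x1) := by
    rw [hy01, hdl01, map_mul, map_inv]
    group
  have hdec : (⟨(w, 1), hx⟩ : ↥(T ⊓ M))
      = (⟨dl x0, dlK x0 hx0Q⟩ * ⟨i1 (x0⁻¹ * x1), i1K _ hz⟩) * ⟨iotaR S C 2 w.right, hs⟩ := by
    apply Subtype.ext
    change ((w, 1) : Wr S 2 × C) = dl x0 * i1 (x0⁻¹ * x1) * iotaR S C 2 w.right
    rw [← hy2, ← hwdec]
  rw [hdec]
  apply powcomm_mul
  · apply powcomm_mul
    · rw [mem_commutator_subtype]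
      change (dl x0) ^ 2 ∈ _
      rw [← map_pow]
      apply dlK'
      have h2 := hQ ⟨x0, hx0Q⟩
      rw [mem_commutator_subtype] at h2
      exact h2
    · rw [mem_commutator_subtype]
      exact i1sq _ hz
  · rw [mem_commutator_subtype]
    change (iotaR S C 2 w.right) ^ 2 ∈ _
    have h1 : ∀ σ : Equiv.Perm (Fin 2), σ ^ 2 = 1 := by decide
    rw [← map_pow, h1, map_one]
    exact Subgroup.one_mem _

end Cfsg.Agent.Lib.Helper75.OmSyl
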